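import Cfsg.Agent.H846.RatB.Fixed
import Cfsg.Agent.H846.RatB.Cent
import Cfsg.Agent.H672.RM.Cliff

/-!
# Lemma L (S4891, TEAM B0-RAT)
-/

set_option autoImplicit false
set_option linter.style.haveILetI false
set_option linter.unusedSectionVars false

namespace Cfsg.Agent.H846.RatB

open Cfsg
open scoped Pointwise
open Cfsg.Agent.Characters.Core
open Cfsg.Agent.H595.Count Cfsg.Agent.H595.Central
open Cfsg.Agent.OddOrderCharacters
open Cfsg.Agent.H672 (Over over_iff coe_charDegree charDegree_of_eq)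

universe u

theorem SN_of_one {p : ℕ} [hp : Fact p.Prime] {T : Type*} [Group T] [Finite T] (P0 : Sylow p T) (R : Subgroup T)
    [hR : R.Normal] (h : ∀ y : T, (∀ x ∈ (P0 : Subgroup T), y * x * y⁻¹ ∈ (P0 : Subgroup T) ⊔ R) →
      y ∈ (P0 : Subgroup T) ⊔ R) : SN p R := by
  intro P y hy
  obtain ⟨g, hg⟩ := MulAction.exists_smul_eq T P0 P
  have hPc : (P : Subgroup T) = MulAut.conj g • (P0 : Subgroup T) := by rw [← hg]; rfl
  have hmem : ∀ z : T, z ∈ (P : Subgroup T) ⊔ R ↔ g⁻¹ * z * g ∈ (P0 : Subgroup T) ⊔ R := by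
    intro z
    have h1 : (P : Subgroup T) ⊔ R = MulAut.conj g • ((P0 : Subgroup T) ⊔ R) := by
      rw [Subgroup.smul_sup, ← hPc, Subgroup.Normal.conj_smul_eq_self g R]
    rw [h1, Subgroup.mem_pointwise_smul_iff_inv_smul_mem, ← map_inv]
    show g⁻¹ * z * g⁻¹⁻¹ ∈ _ ↔ _
    rw [inv_inv]
  rw [hmem]
  apply h
  intro x hx
  have h2 : g * x * g⁻¹ ∈ (P : Subgroup T) := by
    rw [hPc]
    exact Subgroup.smul_mem_pointwise_smul x (MulAut.conj g) (P0 : Subgroup T) hx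
  have h3 := (hmem _).1 (hy _ h2)
  have h4 : g⁻¹ * y * g * x * (g⁻¹ * y * g)⁻¹ = g⁻¹ * (y * (g * x * g⁻¹) * y⁻¹) * g := by group
  rw [h4]
  exact h3

/-- the conclusion of Lemma L -/
def Good (p : ℕ) {Γ : Type u} [Group Γ] [Finite Γ] (N : Subgroup Γ) (ψ : N → ℂ) : Prop :=
  ∃ χ : Γ → ℂ, IsIrrCharacter Γ χ ∧ ¬ p ∣ charDegree χ ∧ PRatC p χ ∧ Over N.subtype χ ψ

/-- Lemma L for index `≤ n` -/
def LemP (p : ℕ) (n : ℕ) : Prop :=
  ∀ (Γ : Type u) [Group Γ] [Finite Γ] (N : Subgroup Γ) [hN : N.Normal] (P : Sylow p Γ) (ψ : N → ℂ),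
    N.index ≤ n → IsIrrCharacter N ψ → ¬ p ∣ charDegree ψ → PRatC p ψ → SN p N →
    (∀ x ∈ P, ∀ k : N, ψ ⟨x * k * x⁻¹, hN.conj_mem k k.2 x⟩ = ψ k) → Good p N ψ

/-- Lemma L for invariant characters and index `≤ n` -/
def LemI (p : ℕ) (n : ℕ) : Prop :=
  ∀ (Γ : Type u) [Group Γ] [Finite Γ] (N : Subgroup Γ) [hN : N.Normal] (ψ : N → ℂ),
    N.index ≤ n → IsIrrCharacter N ψ → ¬ p ∣ charDegree ψ → PRatC p ψ → SN p N → CInv N ψ → Good p N ψ

/-- Lemma L for central subgroups and index `≤ n` -/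
def LemC (p : ℕ) (n : ℕ) : Prop :=
  ∀ (Q : Type u) [Group Q] [Finite Q] (Z : Subgroup Q) (l : Z →* ℂˣ), Z.index ≤ n → Z ≤ Subgroup.center Q →
    ¬ p ∣ Nat.card Z → SN p Z → ∃ β : Q → ℂ, IsIrrCharacter Q β ∧ (∀ (q : Q) (z : Z), β (q * z) = β q * l z) ∧
      ¬ p ∣ charDegree β ∧ PRatC p β

variable {p : ℕ} [hp : Fact p.Prime]

theorem LemC.lemI (hp2 : p ≠ 2) {n : ℕ} (h : LemC.{u} p n) : LemI.{u} p n := by
  intro Γ _ _ N hN ψ hi hψ hd hr hs hinv
  obtain ⟨Q, iQ, fQ, Z, l, hZc, hZp, hZi, hZs, hall⟩ := central_reduce hp2 N ψ hψ hinv hd hr hs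
  obtain ⟨β, h1, h2, h3, h4⟩ := h Q Z l (hZi.trans_le hi) hZc hZp hZs
  exact hall β h1 h2 h3 h4

theorem LemI.lemP {n : ℕ} (h : LemI.{u} p n) : LemP.{u} p n := by
  classical
  intro Γ _ _ N hN P ψ hi hψ hd hr hs hinv
  letI := Fintype.ofFinite Γ
  let T := H672.inertia N ψ
  have hNT : N ≤ T := H672.le_inertia (isIrr_isClassFunction hψ)
  have hPT : (P : Subgroup Γ) ≤ T := by
    intro x hx
    rw [H672.mem_inertia_iff]
    exact hinv x hx
  have hTi : ¬ p ∣ T.index := fun hd => P.not_dvd_index (hd.trans (Subgroup.index_dvd_of_le hPT))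
  let N' := N.subgroupOf T
  have hN' : N'.Normal := hN.subgroupOf T
  let e : N ≃* N' := (Subgroup.subgroupOfEquivOfLe hNT).symm
  let ψ' : N' → ℂ := fun x => ψ ⟨x.1.1, x.2⟩
  have hψe : ψ' ∘ e = ψ := by
    funext x
    rfl
  have hψ' : IsIrrCharacter N' ψ' := by
    have h1 := isIrr_comp e.symm.toMonoidHom e.symm.surjective hψ
    have h2 : ψ ∘ e.symm.toMonoidHom = ψ' := by
      funext x
      rfl
    rw [← h2]
    exact h1
  have hdeg : charDegree ψ' = charDegree ψ := by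
    apply charDegree_of_eq
    rw [coe_charDegree hψ]
    rfl
  have hi' : N'.index ≤ n := by
    refine le_trans (Nat.le_of_dvd (Nat.pos_of_ne_zero N.index_ne_zero_of_finite) ?_) hi
    rw [← Subgroup.relIndex_mul_index hNT]
    exact Dvd.intro _ rfl
  obtain ⟨χ, h1, h2, h3, h4⟩ := h T N' ψ' hi' hψ' (by rw [hdeg]; exact hd) (hr.comp _) (hs.sub T hNT hTi) (by
    intro x k
    have h5 : (x : Γ) ∈ H672.inertia N ψ := x.2
    rw [H672.mem_inertia_iff] at h5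
    exact h5 ⟨k.1.1, k.2⟩)
  have h5 : Over (Subgroup.inclusion hNT) χ ψ := by
    have h6 := (H672.over_comp_equiv N'.subtype e χ ψ').2 h4
    rw [hψe] at h6
    exact h6
  have hT' := H672.RM.mem_iff_conjFn N T rfl
  letI := Fintype.ofFinite N
  letI := Fintype.ofFinite T
  have h6 : IsIrrCharacter Γ (indFun T χ) :=
    PF9.CliffGen.irr_ind hψ hT' hNT h1 ((H672.RM.over_resTo hNT _ _).1 h5)
  refine ⟨indFun T χ, h6, ?_, h3.indFun T, H672.RM.over_indFun N hψ T hNT h1 h6 h5⟩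
  rw [H672.charDegree_indFun T h1 rfl, hp.out.dvd_mul]
  tauto

end Cfsg.Agent.H846.RatB
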