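import Cfsg.Agent.H846.RatB.LemC
import Cfsg.Agent.H627.BR.Over

/-!
# Lemma L in the form of tools/plans/S4891_red.lean.txt (S4891, TEAM B0-RAT)
-/

set_option autoImplicit false
set_option linter.unusedSectionVars false

open Subgroup

namespace Cfsg.Agent.H846.RatB

open Cfsg Cfsg.Agent.H145.BR
open Cfsg.Agent.H627.BR (Ov ov_iff)

universe u

variable {p : ℕ} [hp : Fact p.Prime]

theorem ov_iff_over {G : Type u} [Group G] [Finite G] (N : Subgroup G) (χ : G → ℂ) (θ : N → ℂ) :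
    Ov N χ θ ↔ H672.Over N.subtype χ θ := Iff.rfl

/-- (R2) Lemma L -/
theorem lemmaL (hp2 : p ≠ 2) (hL : LayerTask.{u} p) {G : Type u} [Group G] [Finite G] (P : Sylow p G) (N : Subgroup G)
    [hN : N.Normal]
    (hs : ∀ g : G, (∀ x ∈ (P : Subgroup G), g * x * g⁻¹ ∈ (P : Subgroup G) ⊔ N) → g ∈ (P : Subgroup G) ⊔ N)
    (ψ : IrrCharacter N) (hdeg : ¬ p ∣ charDegree (ψ : N → ℂ)) (hrat : PRat p (ψ : N → ℂ))
    (hinv : ∀ g ∈ (P : Subgroup G), ∀ x : N, (ψ : N → ℂ) (MulAut.conjNormal g x) = (ψ : N → ℂ) x) :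
    ∃ χ : IrrCharacter G, ¬ p ∣ charDegree (χ : G → ℂ) ∧ PRat p (χ : G → ℂ) ∧ Ov N (χ : G → ℂ) ψ := by
  obtain ⟨χ, h1, h2, h3, h4⟩ := lemL hp2 hL N P ψ.2 hdeg hrat (SN_of_one P N hs) (fun x hx k => hinv x hx k)
  exact ⟨⟨χ, h1⟩, h2, h3, h4⟩

end Cfsg.Agent.H846.RatB
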